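import Mathlib
import Cfsg.Agent.Lib.Helper68.MG.Defs

set_option autoImplicit false

namespace Cfsg.Agent.Lib.Helper33.MG

open Cfsg.Agent.Lib.Helper68.MG

universe u

theorem E_diff_nonempty {Ω : Type u} [Finite Ω] (μ : Equiv.Perm Ω) (L : Set Ω) (h : μ '' L ≠ L) :
    (μ '' L \ L).Nonempty := by
  by_contra hne
  rw [Set.not_nonempty_iff_eq_empty, Set.sdiff_eq_empty] at hne
  exact h (Set.eq_of_subset_of_ncard_le hne (by rw [Set.ncard_image_of_injective L μ.injective]))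

theorem exists_Ext {Ω : Type u} [Finite Ω] (G : Subgroup (Equiv.Perm Ω)) (hprim : Prim G) (F : Set Ω)
    (hF : F.Nonempty) (h2 : 2 ≤ Fᶜ.ncard) (hJ : Jor G F) : ∃ B, Ext G F B := by
  classical
  obtain ⟨L, hL⟩ : ∃ L : Set Ω, L = Fᶜ := ⟨_, rfl⟩
  have hLF : ∀ x, x ∈ L ↔ x ∉ F := by intro x; rw [hL]; rfl
  rw [← hL] at h2
  -- step 1
  have h1 : ∃ g, g ∈ G ∧ g '' L ≠ L ∧ ¬ Disjoint (g '' L) L := by
    by_contra hcon
    push Not at hcon
    have hb : ∀ g ∈ G, g '' L = L ∨ Disjoint (g '' L) L := by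
      intro g hg
      by_cases hh : g '' L = L
      · exact Or.inl hh
      · exact Or.inr (hcon g hg hh)
    rcases hprim.2 L hb with hs | hu
    · have := Set.ncard_le_one_iff_subsingleton.2 hs
      omega
    · obtain ⟨f, hf⟩ := hF
      have : f ∈ L := by rw [hu]; trivial
      exact (hLF f).1 this hf
  -- step 2 : minimal g
  let S : Set ℕ := {e | ∃ g, (g ∈ G ∧ g '' L ≠ L ∧ ¬ Disjoint (g '' L) L) ∧ (g '' L \ L).ncard = e}
  have hS : S.Nonempty := by
    obtain ⟨g, hg⟩ := h1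
    exact ⟨_, g, hg, rfl⟩
  obtain ⟨g, ⟨hgG, hgne, hgd⟩, hge⟩ := Nat.sInf_mem hS
  have hmin : ∀ μ, μ ∈ G → μ '' L ≠ L → ¬ Disjoint (μ '' L) L → (g '' L \ L).ncard ≤ (μ '' L \ L).ncard := by
    intro μ h1 h2 h3
    rw [hge]
    exact Nat.sInf_le ⟨μ, ⟨h1, h2, h3⟩, rfl⟩
  obtain ⟨B, hB⟩ : ∃ B : Set Ω, B = g '' L \ L := ⟨_, rfl⟩
  rw [← hB] at hmin
  have hBmem : ∀ x, x ∈ B ↔ x ∈ g '' L ∧ x ∉ L := by intro x; rw [hB]; rfl
  obtain ⟨z, hz⟩ := Set.not_disjoint_iff.1 hgd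
  have hlt : B.ncard < L.ncard := by
    rw [← Set.ncard_image_of_injective L g.injective]
    apply Set.ncard_lt_ncard _ (Set.toFinite _)
    refine ⟨fun x hx => ((hBmem x).1 hx).1, fun hsub => ?_⟩
    exact ((hBmem z).1 (hsub hz.1)).2 hz.2
  have hU : ∀ x, x ∉ F \ B ↔ x ∈ L ∨ x ∈ B := by
    intro x
    rw [Set.mem_sdiff, hLF]
    tauto
  have hU' : ∀ x, x ∉ F \ B ↔ x ∈ L ∨ x ∈ g '' L := by
    intro x
    rw [hU, hBmem]
    tauto
  have hFxle : ∀ h, h ∈ Fx G F → h ∈ Fx G (F \ B) := fun h hh => ⟨hh.1, fun f hf => hh.2 f hf.1⟩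
  refine ⟨B, ?_, ?_, ?_, ?_, ?_⟩
  · intro x hx
    by_contra hxF
    exact ((hBmem x).1 hx).2 ((hLF x).2 hxF)
  · rw [hB]; exact E_diff_nonempty g L hgne
  · -- Jordan
    have hto : ∀ x, x ∉ F \ B → ∃ h ∈ Fx G (F \ B), h x = z := by
      intro x hx
      rcases (hU' x).1 hx with hxL | hxg
      · obtain ⟨h, hh, hhx⟩ := hJ x ((hLF x).1 hxL) z ((hLF z).1 hz.2)
        exact ⟨h, hFxle h hh, hhx⟩
      · obtain ⟨x', hx', rfl⟩ := hxg
        obtain ⟨z', hz', hzz⟩ := hz.1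
        obtain ⟨h, hh, hhx⟩ := hJ x' ((hLF x').1 hx') z' ((hLF z').1 hz')
        refine ⟨g * h * g⁻¹, ⟨G.mul_mem (G.mul_mem hgG hh.1) (G.inv_mem hgG), ?_⟩, ?_⟩
        · intro f hf
          have hfg : f ∉ g '' L := fun hc => ((hU' f).not.1 (not_not.2 hf)) (Or.inr hc)
          have hgf : g⁻¹ f ∈ F := by
            by_contra hc
            exact hfg ⟨g⁻¹ f, (hLF _).2 hc, by simp⟩
          simp only [Equiv.Perm.mul_apply]
          rw [hh.2 _ hgf]
          simp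
        · simp only [Equiv.Perm.mul_apply]
          rw [show g⁻¹ (g x') = x' from by simp, hhx, hzz]
    intro x hx y hy
    obtain ⟨h, hh, hhx⟩ := hto x hx
    obtain ⟨k, hk, hky⟩ := hto y hy
    refine ⟨k⁻¹ * h, (Fx G (F \ B)).mul_mem ((Fx G (F \ B)).inv_mem hk) hh, ?_⟩
    rw [Equiv.Perm.mul_apply, hhx, ← hky]
    simp
  · -- block
    intro μ hμ
    have hμU : ∀ x, x ∉ F \ B → μ x ∉ F \ B := by
      intro x hx hc
      have := hμ.2 _ hc
      have h3 := μ.injective this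
      rw [h3] at hc
      exact hx hc
    by_cases hμL : μ '' L = L
    · left
      apply Set.eq_of_subset_of_ncard_le _ (by rw [Set.ncard_image_of_injective B μ.injective])
      rintro _ ⟨b, hb, rfl⟩
      rcases (hU _).1 (hμU b ((hU b).2 (Or.inr hb))) with h | h
      · exfalso
        rw [← hμL] at h
        obtain ⟨l, hl, hlb⟩ := h
        rw [μ.injective hlb] at hl
        exact ((hBmem b).1 hb).2 hl
      · exact h
    · right
      have hsub : μ '' L \ L ⊆ B := by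
        rintro _ ⟨⟨l, hl, rfl⟩, hnl⟩
        rcases (hU _).1 (hμU l ((hU l).2 (Or.inl hl))) with h | h
        · exact absurd h hnl
        · exact h
      have hnd : ¬ Disjoint (μ '' L) L := by
        intro hd
        have hsub2 : μ '' L ⊆ B := by
          intro y hy
          exact hsub ⟨hy, fun hyL => Set.disjoint_left.1 hd hy hyL⟩
        have := Set.ncard_le_ncard hsub2 (Set.toFinite _)
        rw [Set.ncard_image_of_injective L μ.injective] at this
        omega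
      have hle := hmin μ hμ.1 hμL hnd
      have heq : μ '' L \ L = B := Set.eq_of_subset_of_ncard_le hsub hle
      rw [Set.disjoint_left]
      rintro _ ⟨b, hb, rfl⟩ hb2
      rw [← heq] at hb2
      obtain ⟨l, hl, hlb⟩ := hb2.1
      rw [μ.injective hlb] at hl
      exact ((hBmem b).1 hb).2 hl
  · rw [← hL]; exact hlt

end Cfsg.Agent.Lib.Helper33.MG
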