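import Mathlib

set_option autoImplicit false

namespace Cfsg.Agent.Lib.Helper33.MG

universe u

section
variable {Om : Type u} [Fintype Om] [DecidableEq Om] {Del : Set Om} [DecidablePred (· ∈ Del)]

theorem M2_mem_iff {y : Equiv.Perm Om} {σ : Equiv.Perm Del}
    (h : ∀ x : Del, y (x : Om) = ((σ x : Del) : Om)) (x : Om) : x ∈ Del ↔ y x ∈ Del := by
  constructor
  · intro hx
    rw [h ⟨x, hx⟩]
    exact (σ ⟨x, hx⟩).2
  · intro hx
    have h1 := h (σ⁻¹ ⟨y x, hx⟩)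
    rw [show σ (σ⁻¹ ⟨y x, hx⟩) = ⟨y x, hx⟩ from by simp] at h1
    have h2 : ((σ⁻¹ ⟨y x, hx⟩ : Del) : Om) = x := y.injective h1
    rw [← h2]
    exact (σ⁻¹ ⟨y x, hx⟩).2

theorem M2_conj {y : Equiv.Perm Om} {σ : Equiv.Perm Del}
    (h : ∀ x : Del, y (x : Om) = ((σ x : Del) : Om)) (n : Equiv.Perm Del) :
    y * Equiv.Perm.ofSubtype n * y⁻¹ = Equiv.Perm.ofSubtype (σ * n * σ⁻¹) := by
  rw [mul_inv_eq_iff_eq_mul]
  ext w
  simp only [Equiv.Perm.mul_apply]
  by_cases hw : w ∈ Del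
  · rw [Equiv.Perm.ofSubtype_apply_of_mem n hw, h, h ⟨w, hw⟩,
      Equiv.Perm.ofSubtype_apply_of_mem _ (σ ⟨w, hw⟩).2]
    simp
  · rw [Equiv.Perm.ofSubtype_apply_of_not_mem n hw,
      Equiv.Perm.ofSubtype_apply_of_not_mem _ (fun hh => hw ((M2_mem_iff h w).2 hh))]

end

theorem M2_threeCycle {Om : Type u} [Fintype Om] [DecidableEq Om] (G : Subgroup (Equiv.Perm Om)) (Del : Set Om)
    [DecidablePred (· ∈ Del)]
    (h5 : 5 ≤ Fintype.card Del) (hm2 : 2 ≤ Fintype.card (Delᶜ : Set Om))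
    (hlt : Fintype.card (Delᶜ : Set Om) < Fintype.card Del)
    (hAlt : ∀ σ ∈ alternatingGroup Del, ∃ y ∈ G, ∀ x : Del, y (x : Om) = ((σ x : Del) : Om)) :
    ∃ c ∈ G, c.IsThreeCycle := by
  classical
  choose! Y hYG hY using hAlt
  -- the normal subgroup
  let N : Subgroup (alternatingGroup Del) :=
    (G.comap (Equiv.Perm.ofSubtype : Equiv.Perm Del →* Equiv.Perm Om)).subgroupOf (alternatingGroup Del)
  have hNmem : ∀ ρ : alternatingGroup Del, ρ ∈ N ↔ Equiv.Perm.ofSubtype (ρ : Equiv.Perm Del) ∈ G := by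
    intro ρ
    exact Iff.rfl
  have hNn : N.Normal := by
    constructor
    intro n hn g
    rw [hNmem] at hn ⊢
    have e := M2_conj (hY g.1 g.2) (n : Equiv.Perm Del)
    have e2 : ((g * n * g⁻¹ : alternatingGroup Del) : Equiv.Perm Del) = g.1 * n.1 * g.1⁻¹ := rfl
    rw [e2, ← e]
    exact G.mul_mem (G.mul_mem (hYG g.1 g.2) hn) (G.inv_mem (hYG g.1 g.2))
  have : IsSimpleGroup (alternatingGroup Del) :=
    alternatingGroup.isSimpleGroup (by rw [Nat.card_eq_fintype_card]; exact h5)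
  -- pigeonhole
  have hcompl : ∀ σ : alternatingGroup Del, ∀ x : Om, x ∈ (Delᶜ : Set Om) ↔ Y σ.1 x ∈ (Delᶜ : Set Om) := by
    intro σ x
    simp only [Set.mem_compl_iff]
    exact not_congr (M2_mem_iff (hY σ.1 σ.2) x)
  let f : alternatingGroup Del → Equiv.Perm (Delᶜ : Set Om) := fun σ => (Y σ.1).subtypePerm (fun x => (hcompl σ x).symm)
  have hcard : Fintype.card (Equiv.Perm (Delᶜ : Set Om)) < Fintype.card (alternatingGroup Del) := by
    have : Nontrivial Del := Fintype.one_lt_card_iff_nontrivial.1 (by omega)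
    have h1 := two_mul_card_alternatingGroup (α := Del)
    rw [Fintype.card_perm] at h1 ⊢
    have h2 : (Fintype.card (Delᶜ : Set Om) + 1).factorial ≤ (Fintype.card Del).factorial :=
      Nat.factorial_le hlt
    rw [Nat.factorial_succ] at h2
    have h3 : 0 < (Fintype.card (Delᶜ : Set Om)).factorial := Nat.factorial_pos _
    nlinarith
  obtain ⟨σ, τ, hne, hf⟩ := Fintype.exists_ne_map_eq_of_card_lt f hcard
  have hρ : τ⁻¹ * σ ∈ N := by
    rw [hNmem]
    have e : Equiv.Perm.ofSubtype ((τ⁻¹ * σ : alternatingGroup Del) : Equiv.Perm Del) = (Y τ.1)⁻¹ * Y σ.1 := by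
      rw [eq_inv_mul_iff_mul_eq]
      ext x
      simp only [Equiv.Perm.mul_apply]
      by_cases hx : x ∈ Del
      · rw [Equiv.Perm.ofSubtype_apply_of_mem _ hx, hY τ.1 τ.2, hY σ.1 σ.2 ⟨x, hx⟩]
        simp
      · rw [Equiv.Perm.ofSubtype_apply_of_not_mem _ hx]
        have := congrArg (fun k : Equiv.Perm (Delᶜ : Set Om) => ((k ⟨x, hx⟩ : (Delᶜ : Set Om)) : Om)) hf
        simpa [f] using this.symm
    rw [e]
    exact G.mul_mem (G.inv_mem (hYG τ.1 τ.2)) (hYG σ.1 σ.2)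
  have hNtop : N = ⊤ := by
    rcases hNn.eq_bot_or_eq_top with h | h
    · exfalso
      rw [h, Subgroup.mem_bot, inv_mul_eq_one] at hρ
      exact hne hρ.symm
    · exact h
  obtain ⟨a, b, c, hab, hac, hbc⟩ := Fintype.two_lt_card_iff.1 (show 2 < Fintype.card Del by omega)
  have h3 : (Equiv.swap a b * Equiv.swap a c).IsThreeCycle := Equiv.Perm.isThreeCycle_swap_mul_swap_same hab hac hbc
  have hmem : (⟨_, h3.mem_alternatingGroup⟩ : alternatingGroup Del) ∈ N := by rw [hNtop]; trivial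
  rw [hNmem] at hmem
  refine ⟨_, hmem, ?_⟩
  unfold Equiv.Perm.IsThreeCycle
  rw [Equiv.Perm.cycleType_ofSubtype]
  exact h3

end Cfsg.Agent.Lib.Helper33.MG
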